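import Mathlib
import Cfsg.Agent.TwoGroup.UniqueInvolution

/-!
# Central quotients which are generalized quaternion

If `S ⧸ D` (`D` central) is non-abelian with a unique involution, lifts `x`, `y` of the frame generators
generate `S` modulo `D`, and the derived subgroup of `S` is generated by `⁅x, y⁆`.
-/

set_option autoImplicit false

open scoped commutatorElement

namespace CfsgLib.CentralQuotient

open CfsgLib.TwoGroup

variable {S : Type*} [Group S]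

/-- The quotient by a normal `D` is generalized quaternion. -/
theorem exists_frame_of_quotient [Finite S] (hS : IsPGroup 2 S) (D : Subgroup S) [D.Normal]
    (hna : ¬ IsMulCommutative (S ⧸ D)) (hu : ∃! x : S ⧸ D, orderOf x = 2) :
    ∃ n, 2 ≤ n ∧ Nonempty (Frame (S ⧸ D) (2 ^ n) (-1) (half n)) := by
  rcases cyclic_or_quaternion_frame (hS.to_quotient D) (atMostOneInvolution_of_existsUnique hu) with h | ⟨n, hn, -, hF⟩
  · exact absurd IsCyclic.isMulCommutative hna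
  · exact ⟨n, hn, hF⟩

theorem frame_cover {D : Subgroup S} [D.Normal] {N : ℕ} {r s : ZMod N} (F : Frame (S ⧸ D) N r s)
    {x y : S} (hx : QuotientGroup.mk' D x = F.e 1) (hy : QuotientGroup.mk' D y = F.y) (g : S) :
    ∃ i : ℤ, ∃ d ∈ D, g = x ^ i * d ∨ g = x ^ i * d * y := by
  obtain ⟨a, ha⟩ := F.cover (QuotientGroup.mk' D g)
  obtain ⟨i, rfl⟩ := ZMod.intCast_surjective a
  have hi : F.e (i : ZMod N) = QuotientGroup.mk' D (x ^ i) := by
    rw [map_zpow, hx, ← F.map_zsmul, mul_one]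
  refine ⟨i, ?_⟩
  rcases ha with h | h
  · refine ⟨(x ^ i)⁻¹ * g, ?_, Or.inl (by group)⟩
    rw [← QuotientGroup.eq_one_iff]
    show QuotientGroup.mk' D ((x ^ i)⁻¹ * g) = 1
    rw [map_mul, map_inv, h, hi, inv_mul_cancel]
  · refine ⟨(x ^ i)⁻¹ * (g * y⁻¹), ?_, Or.inr (by group)⟩
    rw [← QuotientGroup.eq_one_iff]
    show QuotientGroup.mk' D ((x ^ i)⁻¹ * (g * y⁻¹)) = 1
    rw [map_mul, map_mul, map_inv, map_inv, h, hy, hi, mul_inv_cancel_right, inv_mul_cancel]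

/-- If `S` is covered by `⟨x⟩D` and `⟨x⟩D y` with `D` central and `c = ⁅x, y⁆` commuting with `x`,
the derived subgroup lies in `⟨c⟩`. -/
theorem commutator_le_zpowers {D : Subgroup S} (hD : D ≤ Subgroup.center S) {x y : S}
    (hcov : ∀ g : S, ∃ i : ℤ, ∃ d ∈ D, g = x ^ i * d ∨ g = x ^ i * d * y)
    (hc : Commute ⁅x, y⁆ x) : commutator S ≤ Subgroup.zpowers ⁅x, y⁆ := by
  obtain ⟨c, hcd⟩ : ∃ c, c = ⁅x, y⁆ := ⟨_, rfl⟩
  rw [← hcd] at hc ⊢
  have hconj : y * x * y⁻¹ = c⁻¹ * x := by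
    rw [hcd, commutatorElement_def]; group
  have hd : ∀ d ∈ D, ∀ g : S, g * d = d * g := fun d hd g => Subgroup.mem_center_iff.1 (hD hd) g
  have hy : ∀ i : ℤ, y * x ^ i * y⁻¹ = (c ^ i)⁻¹ * x ^ i := by
    intro i
    rw [← conj_zpow, hconj, hc.inv_left.mul_zpow, inv_zpow]
  have hyd : ∀ i : ℤ, ∀ d ∈ D, y * (x ^ i * d) * y⁻¹ = (c ^ i)⁻¹ * (x ^ i * d) := by
    intro i d hd'
    rw [← conj_mul, hy, show y * d * y⁻¹ = d by rw [hd d hd' y, mul_inv_cancel_right], mul_assoc]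
  have hcA : ∀ i j : ℤ, ∀ d ∈ D, Commute (c ^ i) (x ^ j * d) := fun i j d hd' =>
    (hc.zpow_zpow i j).mul_right (hd d hd' (c ^ i))
  have hAA : ∀ i j : ℤ, ∀ d ∈ D, ∀ e ∈ D, Commute (x ^ i * d) (x ^ j * e) := fun i j d hd' e he =>
    (((Commute.refl x).zpow_zpow i j).mul_right (hd e he (x ^ i))).mul_left
      ((show Commute d (x ^ j * e) from (hd d hd' (x ^ j * e)).symm))
  -- commutators
  have k1 : ∀ i j : ℤ, ∀ d ∈ D, ∀ e ∈ D, ⁅x ^ i * d, x ^ j * e * y⁆ = c ^ i := by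
    intro i j d hd' e he
    have h1 : y * (x ^ i * d)⁻¹ * y⁻¹ = (x ^ i * d)⁻¹ * c ^ i := by
      calc y * (x ^ i * d)⁻¹ * y⁻¹ = (y * (x ^ i * d) * y⁻¹)⁻¹ := by group
        _ = (x ^ i * d)⁻¹ * c ^ i := by rw [hyd i d hd', mul_inv_rev, inv_inv]
    calc ⁅x ^ i * d, x ^ j * e * y⁆
        = (x ^ i * d) * (x ^ j * e) * (y * (x ^ i * d)⁻¹ * y⁻¹) * (x ^ j * e)⁻¹ := by
          rw [commutatorElement_def]; group
      _ = (x ^ j * e) * (x ^ i * d) * ((x ^ i * d)⁻¹ * c ^ i) * (x ^ j * e)⁻¹ := by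
          rw [h1, (hAA i j d hd' e he).eq]
      _ = (x ^ j * e) * c ^ i * (x ^ j * e)⁻¹ := by group
      _ = c ^ i := by rw [← (hcA i j e he).eq, mul_inv_cancel_right]
  have k2 : ∀ i j : ℤ, ∀ d ∈ D, ∀ e ∈ D, ⁅x ^ i * d * y, x ^ j * e * y⁆ = c ^ i * (c ^ j)⁻¹ := by
    intro i j d hd' e he
    have h1 : y * (x ^ i * d)⁻¹ * y⁻¹ = (x ^ i * d)⁻¹ * c ^ i := by
      calc y * (x ^ i * d)⁻¹ * y⁻¹ = (y * (x ^ i * d) * y⁻¹)⁻¹ := by group
        _ = (x ^ i * d)⁻¹ * c ^ i := by rw [hyd i d hd', mul_inv_rev, inv_inv]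
    calc ⁅x ^ i * d * y, x ^ j * e * y⁆
        = (x ^ i * d) * (y * (x ^ j * e) * y⁻¹) * (y * (x ^ i * d)⁻¹ * y⁻¹) * (x ^ j * e)⁻¹ := by
          rw [commutatorElement_def]; group
      _ = (x ^ i * d) * ((c ^ j)⁻¹ * (x ^ j * e)) * ((x ^ i * d)⁻¹ * c ^ i) * (x ^ j * e)⁻¹ := by
          rw [h1, hyd j e he]
      _ = (c ^ j)⁻¹ * ((x ^ i * d) * (x ^ j * e) * (x ^ i * d)⁻¹) * c ^ i * (x ^ j * e)⁻¹ := by
          rw [← mul_assoc (x ^ i * d), ← (hcA j i d hd').inv_left.eq]; group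
      _ = (c ^ j)⁻¹ * ((x ^ j * e) * c ^ i * (x ^ j * e)⁻¹) := by
          rw [(hAA i j d hd' e he).eq, mul_inv_cancel_right]; group
      _ = c ^ i * (c ^ j)⁻¹ := by
          rw [← (hcA i j e he).eq, mul_inv_cancel_right,
            (((Commute.refl c).zpow_zpow j i).inv_left).eq]
  rw [commutator_def, Subgroup.commutator_le]
  intro g _ h _
  obtain ⟨i, d, hd', rfl | rfl⟩ := hcov g <;> obtain ⟨j, e, he, rfl | rfl⟩ := hcov h
  · rw [commutatorElement_eq_one_iff_mul_comm.2 (hAA i j d hd' e he).eq]; exact one_mem _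
  · rw [k1 i j d hd' e he]; exact ⟨i, rfl⟩
  · rw [← commutatorElement_inv, k1 j i e he d hd']; exact inv_mem ⟨j, rfl⟩
  · rw [k2 i j d hd' e he]; exact mul_mem ⟨i, rfl⟩ (inv_mem ⟨j, rfl⟩)

end CfsgLib.CentralQuotient
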